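import Cfsg.Agent.H830.B57.Defs
import Cfsg.Agent.H893.Fac
import Cfsg.Agent.H486.B57.Col
import Cfsg.Agent.H870.B57.Wr

/-!
# Bases of primitive groups: the product case

`prod_case`: `G` primitive with a non-abelian minimal normal subgroup `N = T_1 × ... × T_m` such
that `N_ω` is the product of its projections.  The coordinate sets are the orbits of the
subgroups `C_N(T_i)`: `Pt e Ω` is the disjoint union of the coordinate sets.
-/

set_option autoImplicit false

open Subgroup

namespace Cfsg.Agent.H855.B57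

open Cfsg.Agent.H830.B57 Cfsg.Agent

section Coord

variable {G Ω : Type*} [Group G] [MulAction G Ω] {N : Subgroup G} {m : ℕ}
  {T : Fin m → Subgroup G}

/-- `(i, w)` and `(i, n w)` are equivalent, if the `i`-coordinate of `n ∈ N` is trivial. -/
def ptSetoid (e : N ≃* (∀ i, T i)) (Ω : Type*) [MulAction G Ω] : Setoid (Fin m × Ω) where
  r p q := p.1 = q.1 ∧ ∃ n : N, e n p.1 = 1 ∧ q.2 = (n : G) • p.2
  iseqv :=
    { refl := fun p => ⟨rfl, 1, by rw [map_one]; rfl, by simp⟩
      symm := by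
        rintro ⟨i, w⟩ ⟨j, v⟩ ⟨hij, n, hn, hv⟩
        change i = j at hij
        change v = (n : G) • w at hv
        subst hij
        refine ⟨rfl, n⁻¹, ?_, ?_⟩
        · change e n⁻¹ i = 1
          have hn' : e n i = 1 := hn
          rw [map_inv, Pi.inv_apply, hn', inv_one]
        · change w = ((n⁻¹ : N) : G) • v
          rw [hv, InvMemClass.coe_inv, inv_smul_smul]
      trans := by
        rintro ⟨i, w⟩ ⟨j, v⟩ ⟨l, u⟩ ⟨hij, n, hn, hv⟩ ⟨hjl, n', hn', hu⟩
        change i = j at hij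
        change j = l at hjl
        subst hij hjl
        change v = (n : G) • w at hv
        change u = (n' : G) • v at hu
        change e n i = 1 at hn
        change e n' i = 1 at hn'
        refine ⟨rfl, n' * n, ?_, ?_⟩
        · change e (n' * n) i = 1
          rw [map_mul, Pi.mul_apply, hn, hn', one_mul]
        · change u = ((n' * n : N) : G) • w
          rw [hu, hv, Subgroup.coe_mul, mul_smul] }

/-- the disjoint union of the coordinate sets -/
def Pt (e : N ≃* (∀ i, T i)) (Ω : Type*) [MulAction G Ω] : Type _ := Quotient (ptSetoid e Ω)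

variable {e : N ≃* (∀ i, T i)}

/-- the coordinate of a point -/
def pt (e : N ≃* (∀ i, T i)) (i : Fin m) (w : Ω) : Pt e Ω := Quotient.mk (ptSetoid e Ω) (i, w)

theorem pt_eq {i : Fin m} {w v : Ω} :
    pt e i w = pt e i v ↔ ∃ n : N, e n i = 1 ∧ v = (n : G) • w := by
  constructor
  · intro h
    have h1 : (ptSetoid e Ω) (i, w) (i, v) := Quotient.exact h
    exact h1.2
  · intro h
    exact Quotient.sound ⟨rfl, h⟩

/-- the projection -/
def prj (x : Pt e Ω) : Fin m :=
  Quotient.lift (s := ptSetoid e Ω) (fun p : Fin m × Ω => p.1) (fun _ _ h => h.1) x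

theorem prj_pt (i : Fin m) (w : Ω) : prj (pt e i w) = i := rfl

theorem exists_pt (x : Pt e Ω) : ∃ w : Ω, x = pt e (prj x) w := by
  induction x using Quotient.inductionOn with
  | h p => exact ⟨p.2, rfl⟩

instance [Finite Ω] : Finite (Pt e Ω) := by
  unfold Pt
  infer_instance

variable [N.Normal]

/-- `g • (i, w) = (g i, g w)`. -/
noncomputable def smulPt (hf : H893.Fac N m T e) (g : G) (x : Pt e Ω) : Pt e Ω :=
  Quotient.lift (s := ptSetoid e Ω) (fun p : Fin m × Ω => pt e (hf.perm g p.1) (g • p.2)) (by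
    rintro ⟨i, w⟩ ⟨j, v⟩ ⟨hij, n, hn, hv⟩
    change i = j at hij
    subst hij
    change v = (n : G) • w at hv
    change e n i = 1 at hn
    change pt e (hf.perm g i) (g • w) = pt e (hf.perm g i) (g • v)
    rw [pt_eq]
    refine ⟨H893.Fac.cj N g n, ?_, ?_⟩
    · rw [hf.cj_eq_one g i (hf.perm g i) (hf.perm_spec g i)]
      exact hn
    · change g • v = (g * (n : G) * g⁻¹) • g • w
      rw [hv, smul_smul, smul_smul]
      congr 1
      group) x

theorem smulPt_pt (hf : H893.Fac N m T e) (g : G) (i : Fin m) (w : Ω) :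
    smulPt hf g (pt e i w) = pt e (hf.perm g i) (g • w) := rfl

/-- the action on the coordinate sets -/
@[reducible] noncomputable def actPt (hf : H893.Fac N m T e) : MulAction G (Pt e Ω) where
  smul := smulPt hf
  one_smul x := by
    obtain ⟨w, hw⟩ := exists_pt x
    rw [hw]
    change smulPt hf 1 (pt e (prj x) w) = pt e (prj x) w
    rw [smulPt_pt, map_one, one_smul]
    rfl
  mul_smul a b x := by
    obtain ⟨w, hw⟩ := exists_pt x
    rw [hw]
    change smulPt hf (a * b) (pt e (prj x) w) = smulPt hf a (smulPt hf b (pt e (prj x) w))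
    rw [smulPt_pt, smulPt_pt, smulPt_pt, map_mul, mul_smul]
    rfl

end Coord

section Main

variable {G Ω : Type} [Group G] [MulAction G Ω] {N : Subgroup G} {m : ℕ}
  {T : Fin m → Subgroup G} {e : N ≃* (∀ i, T i)}

/-- The `i`-coordinate of an element of `N ∩ K` is in `K`. -/
theorem coord_mem {ω : Ω}
    (hprod : ∀ n : N, (n : G) ∈ MulAction.stabilizer G ω ↔
      ∀ i, ((e n i : T i) : G) ∈ MulAction.stabilizer G ω) {n : N} (hn : (n : G) • ω = ω)
    (i : Fin m) : ((e n i : T i) : G) • ω = ω :=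
  (hprod n).mp hn i

theorem e_coe_self (hf : H893.Fac N m T e) {i : Fin m} (t : T i) (hN : (t : G) ∈ N) :
    e ⟨(t : G), hN⟩ i = t := by
  classical
  have h1 : (⟨(t : G), hN⟩ : N) = e.symm (Pi.mulSingle i t) := by
    apply Subtype.ext
    rw [hf.single]
  rw [h1, MulEquiv.apply_symm_apply, Pi.mulSingle_eq_same]

/-- comparing points `s ω` and `t ω` -/
theorem pt_eq_iff (hf : H893.Fac N m T e) {ω : Ω}
    (hprod : ∀ n : N, (n : G) ∈ MulAction.stabilizer G ω ↔
      ∀ i, ((e n i : T i) : G) ∈ MulAction.stabilizer G ω) (i : Fin m) (s t : T i) :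
    pt e i ((s : G) • ω) = pt e i ((t : G) • ω) ↔ ((s⁻¹ * t : T i) : G) • ω = ω := by
  rw [pt_eq]
  have hs : (s : G) ∈ N := hf.le i s.2
  have ht : (t : G) ∈ N := hf.le i t.2
  constructor
  · rintro ⟨n, hn, h⟩
    -- `s⁻¹ n⁻¹ t ∈ K`
    have h1 : (((⟨(s : G), hs⟩ : N)⁻¹ * n⁻¹ * (⟨(t : G), ht⟩ : N) : N) : G) • ω = ω := by
      change ((s : G)⁻¹ * (n : G)⁻¹ * (t : G)) • ω = ω
      rw [mul_smul, mul_smul, h, inv_smul_smul, inv_smul_smul]
    have h2 := coord_mem hprod h1 i
    rwa [map_mul, map_mul, map_inv, map_inv, Pi.mul_apply, Pi.mul_apply, Pi.inv_apply,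
      Pi.inv_apply, hn, inv_one, mul_one, e_coe_self hf, e_coe_self hf] at h2
  · intro h
    refine ⟨1, by rw [map_one]; rfl, ?_⟩
    have h1 : ((s : G)⁻¹ * (t : G)) • ω = ω := h
    rw [OneMemClass.coe_one, one_smul]
    calc (t : G) • ω = (s : G) • ((s : G)⁻¹ * (t : G)) • ω := by
          rw [mul_smul, smul_inv_smul]
      _ = (s : G) • ω := by rw [h1]

/-- every point of a coordinate set is `t ω` -/
theorem exists_pt_coord (hf : H893.Fac N m T e) {ω : Ω}
    (htr : ∀ w : Ω, ∃ n : N, w = (n : G) • ω) (x : Pt e Ω) (i : Fin m) (hi : prj x = i) :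
    ∃ t : T i, x = pt e i ((t : G) • ω) := by
  obtain ⟨w, hw⟩ := exists_pt x
  rw [hi] at hw
  obtain ⟨n, hn⟩ := htr w
  refine ⟨e n i, ?_⟩
  have ht : ((e n i : T i) : G) ∈ N := hf.le _ (e n i).2
  have h1 : pt e i w = pt e i (((e n i : T i) : G) • ω) := by
    rw [pt_eq]
    refine ⟨(⟨_, ht⟩ : N) * n⁻¹, ?_, ?_⟩
    · rw [map_mul, map_inv, Pi.mul_apply, Pi.inv_apply, e_coe_self hf, mul_inv_cancel]
    · change _ = (((e n i : T i) : G) * (n : G)⁻¹) • w
      rw [hn, mul_smul, inv_smul_smul]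
  exact hw.trans h1

/-- the coordinates determine the point -/
theorem pt_inj {ω : Ω} (htr : ∀ w : Ω, ∃ n : N, w = (n : G) • ω)
    (hprod : ∀ n : N, (n : G) ∈ MulAction.stabilizer G ω ↔
      ∀ i, ((e n i : T i) : G) ∈ MulAction.stabilizer G ω) {w v : Ω}
    (h : ∀ i, pt e i w = pt e i v) : w = v := by
  obtain ⟨u, hu⟩ := htr w
  obtain ⟨s, hs⟩ := htr v
  have h1 : ((u⁻¹ * s : N) : G) ∈ MulAction.stabilizer G ω := by
    rw [hprod]
    intro i
    obtain ⟨n, hn, hv⟩ := pt_eq.mp (h i)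
    have h2 : ((u⁻¹ * n⁻¹ * s : N) : G) • ω = ω := by
      change ((u : G)⁻¹ * (n : G)⁻¹ * (s : G)) • ω = ω
      rw [mul_smul, mul_smul, ← hs, hv, inv_smul_smul, hu, inv_smul_smul]
    have h3 := coord_mem hprod h2 i
    have h4 : e (u⁻¹ * s) i = e (u⁻¹ * n⁻¹ * s) i := by
      rw [map_mul, map_mul, map_mul, map_inv, map_inv, Pi.mul_apply, Pi.mul_apply, Pi.mul_apply,
        Pi.inv_apply, Pi.inv_apply, hn, inv_one, mul_one]
    rw [h4]
    exact h3
  have h5 : ((u : G)⁻¹ * (s : G)) • ω = ω := h1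
  calc w = (u : G) • ω := hu
    _ = (u : G) • ((u : G)⁻¹ * (s : G)) • ω := by rw [h5]
    _ = (s : G) • ω := by rw [mul_smul, smul_inv_smul]
    _ = v := hs.symm

/-- every family of coordinates comes from a point -/
theorem pt_surj (hf : H893.Fac N m T e) {ω : Ω}
    (htr : ∀ w : Ω, ∃ n : N, w = (n : G) • ω) (s : Fin m → Pt e Ω) (hs : ∀ i, prj (s i) = i) :
    ∃ w : Ω, (fun i => pt e i w) = s := by
  have h1 : ∀ i, ∃ t : T i, s i = pt e i ((t : G) • ω) :=
    fun i => exists_pt_coord hf htr (s i) i (hs i)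
  choose t ht using h1
  refine ⟨((e.symm t : N) : G) • ω, ?_⟩
  funext i
  rw [ht i, pt_eq]
  have hti : ((t i : T i) : G) ∈ N := hf.le _ (t i).2
  refine ⟨(⟨_, hti⟩ : N) * (e.symm t)⁻¹, ?_, ?_⟩
  · rw [map_mul, map_inv, Pi.mul_apply, Pi.inv_apply, e_coe_self hf, MulEquiv.apply_symm_apply,
      mul_inv_cancel]
  · change _ = ((t i : G) * ((e.symm t : N) : G)⁻¹) • _
    rw [mul_smul, inv_smul_smul]

/-- the point stabiliser does not contain a factor -/
theorem exists_not_mem (hf : H893.Fac N m T e) {ω : Ω}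
    (hNK : ¬ N ≤ MulAction.stabilizer G ω)
    (hprod : ∀ n : N, (n : G) ∈ MulAction.stabilizer G ω ↔
      ∀ i, ((e n i : T i) : G) ∈ MulAction.stabilizer G ω)
    (htr : ∀ w : Ω, ∃ n : N, w = (n : G) • ω) (i : Fin m) :
    ∃ t : T i, ¬ (t : G) • ω = ω := by
  by_contra hcon
  push Not at hcon
  apply hNK
  intro n hn
  have h0 : ((⟨n, hn⟩ : N) : G) ∈ MulAction.stabilizer G ω := by
    rw [hprod]
    intro j
    obtain ⟨g, hg⟩ := hf.trans i j
    obtain ⟨u, hu⟩ := htr (g⁻¹ • ω)
    -- `g⁻¹ ω = u ω`, `k = g u ∈ K`, `T_j = g T_i g⁻¹ = k T_i k⁻¹`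
    have hk : (g * (u : G)) • ω = ω := by
      rw [mul_smul, ← hu, smul_inv_smul]
    have h1 : (T i).map (MulAut.conj (u : G)).toMonoidHom = T i :=
      mem_normalizer_iff_map_conj_eq.mp (hf.norm i u.2)
    have h2 : T j = (T i).map (MulAut.conj (g * (u : G))).toMonoidHom := by
      rw [← Lib.MinNormal.map_conj_map_conj, h1, hg]
    have h3 : ((e ⟨n, hn⟩ j : T j) : G) ∈ (T i).map (MulAut.conj (g * (u : G))).toMonoidHom := by
      rw [← h2]
      exact (e ⟨n, hn⟩ j).2
    obtain ⟨t, ht, htn⟩ := h3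
    rw [← htn]
    change (g * (u : G) * t * (g * (u : G))⁻¹) • ω = ω
    rw [mul_smul, mul_smul, (inv_smul_eq_iff.mpr hk.symm : (g * (u : G))⁻¹ • ω = ω),
      hcon ⟨t, ht⟩, hk]
  exact h0

/-- the degree is large -/
theorem lt_card [Finite Ω] (hf : H893.Fac N m T e) {ω : Ω}
    (hNK : ¬ N ≤ MulAction.stabilizer G ω)
    (hprod : ∀ n : N, (n : G) ∈ MulAction.stabilizer G ω ↔
      ∀ i, ((e n i : T i) : G) ∈ MulAction.stabilizer G ω)
    (htr : ∀ w : Ω, ∃ n : N, w = (n : G) • ω) : m < Nat.card Ω := by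
  classical
  choose t ht using exists_not_mem hf hNK hprod htr
  have h1 : ∀ s : Fin m → Bool, ∃ w : Ω,
      (fun i => pt e i w) = fun i => if s i then pt e i ((t i : G) • ω) else pt e i ω := by
    intro s
    apply pt_surj hf htr
    intro i
    by_cases h : s i = true
    · rw [if_pos h, prj_pt]
    · rw [if_neg h, prj_pt]
  choose f hf1 using h1
  have hne : ∀ i, pt e i ((t i : G) • ω) ≠ pt e i ω := by
    intro i h
    apply ht i
    have h2 : pt e i (((1 : T i) : G) • ω) = pt e i ((t i : G) • ω) := by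
      rw [h, OneMemClass.coe_one, one_smul]
    rw [pt_eq_iff hf hprod, inv_one, one_mul] at h2
    exact h2
  have hinj : Function.Injective f := by
    intro s s' h
    funext i
    have h2 : (if s i then pt e i ((t i : G) • ω) else pt e i ω) =
        if s' i then pt e i ((t i : G) • ω) else pt e i ω := by
      have h3 := congrFun (hf1 s) i
      have h4 := congrFun (hf1 s') i
      rw [h] at h3
      exact h3.symm.trans h4
    cases hs : s i <;> cases hs' : s' i <;> rw [hs, hs'] at h2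
    · exact absurd h2.symm (hne i)
    · exact absurd h2 (hne i)
  have h5 := Nat.card_le_card_of_injective f hinj
  have h6 : Nat.card (Fin m → Bool) = 2 ^ m := by
    simp
  rw [h6] at h5
  exact lt_of_lt_of_le Nat.lt_two_pow_self h5

variable [N.Normal]

/-- a base of the stabiliser of a factor on its coordinate set -/
theorem base_coord [Finite Ω] (hf : H893.Fac N m T e) {ω : Ω}
    (hNK : ¬ N ≤ MulAction.stabilizer G ω)
    (hprod : ∀ n : N, (n : G) ∈ MulAction.stabilizer G ω ↔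
      ∀ i, ((e n i : T i) : G) ∈ MulAction.stabilizer G ω)
    (htr : ∀ w : Ω, ∃ n : N, w = (n : G) • ω) (i : Fin m) (k : ℕ) (hT : TBase (T i) k) :
    ∃ B : Finset (Pt e Ω), (∀ x ∈ B, prj x = i) ∧ B.card ≤ k + 1 ∧
      ∀ g : G, hf.perm g i = i → (∀ x ∈ B, smulPt hf g x = x) →
        ∀ x : Pt e Ω, prj x = i → smulPt hf g x = x := by
  classical
  let H : Subgroup (T i) := (MulAction.stabilizer G ω).subgroupOf (T i)
  have hH : ∀ t : T i, t ∈ H ↔ (t : G) • ω = ω := fun t => Iff.rfl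
  have hHtop : H ≠ ⊤ := by
    intro h
    obtain ⟨t, ht⟩ := exists_not_mem hf hNK hprod htr i
    apply ht
    rw [← hH, h]
    exact mem_top t
  obtain ⟨t, ht⟩ := hT H hHtop
  refine ⟨insert (pt e i ω) (Finset.univ.image fun j => pt e i ((t j : G) • ω)), ?_, ?_, ?_⟩
  · intro x hx
    rw [Finset.mem_insert, Finset.mem_image] at hx
    rcases hx with rfl | ⟨j, _, rfl⟩
    · rfl
    · rfl
  · refine (Finset.card_insert_le _ _).trans (Nat.succ_le_succ ?_)
    refine Finset.card_image_le.trans ?_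
    rw [Finset.card_univ, Fintype.card_fin]
  · intro g hgi hfix x hx
    have h0 : smulPt hf g (pt e i ω) = pt e i ω := hfix _ (Finset.mem_insert_self _ _)
    rw [smulPt_pt, hgi] at h0
    obtain ⟨n, hn, hω⟩ := pt_eq.mp h0
    obtain ⟨y, hydef⟩ : ∃ y : G, y = (n : G) * g := ⟨_, rfl⟩
    have hy : y • ω = ω := by rw [hydef, mul_smul, ← hω]
    have hyg : ∀ w : Ω, pt e i (g • w) = pt e i (y • w) := by
      intro w
      rw [hydef, mul_smul, pt_eq]
      exact ⟨n, hn, rfl⟩
    have hyi : hf.perm y i = i := by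
      have h1 : hf.perm (n : G) = 1 := hf.le_ker_perm n.2
      rw [hydef, map_mul, h1, one_mul, hgi]
    have hyN : T i = (T i).map (MulAut.conj y).toMonoidHom := by
      have h1 := hf.perm_spec y i
      rwa [hyi] at h1
    obtain ⟨a, ha⟩ : ∃ a : MulAut (T i), ∀ t : T i, ((a t : T i) : G) = y * (t : G) * y⁻¹ :=
      ⟨((MulAut.conj y).subgroupMap (T i)).trans (MulEquiv.subgroupCongr hyN.symm),
        fun t => rfl⟩
    have hyinv : y⁻¹ • ω = ω := by rw [inv_smul_eq_iff, hy]
    have hay : ∀ t : T i, y • (t : G) • ω = ((a t : T i) : G) • ω := by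
      intro t
      rw [ha, mul_smul, mul_smul, hyinv]
    have haH : ∀ h, h ∈ H ↔ a h ∈ H := by
      intro h
      rw [hH, hH, ← hay]
      constructor
      · intro h1
        rw [h1, hy]
      · intro h1
        have h2 : (h : G) • ω = y⁻¹ • ω := by rw [eq_inv_smul_iff, h1]
        rw [h2, hyinv]
    have hj : ∀ j, (t j)⁻¹ * a (t j) ∈ H := by
      intro j
      have h1 : smulPt hf g (pt e i ((t j : G) • ω)) = pt e i ((t j : G) • ω) :=
        hfix _ (Finset.mem_insert_of_mem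
          (Finset.mem_image_of_mem (fun j => pt e i ((t j : G) • ω)) (Finset.mem_univ j)))
      rw [smulPt_pt, hgi, hyg, hay] at h1
      rw [hH]
      exact (pt_eq_iff hf hprod i (t j) (a (t j))).mp h1.symm
    have ha1 : a = 1 := ht a haH hj
    obtain ⟨u, hu⟩ := exists_pt_coord hf htr x i hx
    rw [hu, smulPt_pt, hgi, hyg, hay, ha1]
    rfl

/-- **B1, product case** -/
theorem prod_case (G Ω : Type) [Group G] [Finite G] [MulAction G Ω] [FaithfulSMul G Ω]
    [Finite Ω] (hp : MulAction.IsPreprimitive G Ω) (N : Subgroup G) [N.Normal]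
    (m : ℕ) (T : Fin m → Subgroup G) (e : N ≃* (∀ i, T i)) (hf : H893.Fac N m T e)
    (ω : Ω) (hNK : ¬ N ≤ MulAction.stabilizer G ω)
    (hprod : ∀ n : N, (n : G) ∈ MulAction.stabilizer G ω ↔
      ∀ i, ((e n i : T i) : G) ∈ MulAction.stabilizer G ω) (k b : ℕ) (hT : ∀ i, TBase (T i) k)
    (ih : ∀ (L Δ : Type) [Group L] [Finite L] [MulAction L Δ] [Finite Δ] (f : L →* G),
      Function.Injective f → MulAction.IsPreprimitive L Δ → Nontrivial Δ →
      Nat.card Δ < Nat.card Ω → BaseLE L Δ b) :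
    BaseLE G Ω (k + 1 + Nat.clog 2 (2 * b + 2)) := by
  classical
  -- `N` is transitive
  have hNtr : MulAction.IsPretransitive N Ω := by
    apply MulAction.IsQuasiPreprimitive.isPretransitive_of_normal (G := G)
    intro h
    apply hNK
    intro n hn
    have h1 : ω ∈ MulAction.fixedPoints N Ω := by
      rw [h]
      exact Set.mem_univ ω
    exact h1 ⟨n, hn⟩
  have htr : ∀ w : Ω, ∃ n : N, w = (n : G) • ω := by
    intro w
    obtain ⟨n, hn⟩ := hNtr.exists_smul_eq ω w
    exact ⟨n, hn.symm⟩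
  have hm := lt_card hf hNK hprod htr
  let aI : MulAction G (Fin m) := MulAction.compHom (Fin m) hf.perm
  let aX : MulAction G (Pt e Ω) := actPt hf
  have : Nonempty (Fin m) := ⟨⟨0, hf.pos⟩⟩
  have htrI : MulAction.IsPretransitive G (Fin m) := by
    refine ⟨fun i j => ?_⟩
    obtain ⟨g, hg⟩ := hf.trans i j
    refine ⟨g, ?_⟩
    change hf.perm g i = j
    apply hf.inj
    rw [hf.perm_spec, hg]
  obtain ⟨F, hF⟩ := H486.B57.col b (2 * b + 2) le_rfl G (Fin m) htrI
    (fun L Δ _ _ _ _ f hfi hpr hnt hle => ih L Δ f hfi hpr hnt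
      (lt_of_le_of_lt hle (by rwa [Nat.card_fin])))
  have i0 : Fin m := ⟨0, hf.pos⟩
  obtain ⟨B, hB1, hB2, hB3⟩ := base_coord hf hNK hprod htr i0 k (hT i0)
  obtain ⟨t, ht⟩ := exists_not_mem hf hNK hprod htr i0
  refine H870.B57.wr (G := G) (I := Fin m) (X := Pt e Ω) (Ω := Ω) prj ?_ (fun w i => pt e i w)
    (fun w i => rfl) (fun s hs => pt_surj hf htr s hs) ?_ ?_ htrI i0 (k + 1) B hB1 hB2 ?_ ?_
    (2 * b + 2) (F 0) ?_
  · intro g x
    obtain ⟨w, hw⟩ := exists_pt x
    rw [hw]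
    rfl
  · intro w v h
    exact pt_inj htr hprod fun i => congrFun h i
  · intro g w i
    rfl
  · exact hB3
  · refine ⟨pt e i0 ω, pt e i0 ((t : G) • ω), ?_, rfl, rfl⟩
    intro h
    apply ht
    have h2 : pt e i0 (((1 : T i0) : G) • ω) = pt e i0 ((t : G) • ω) := by
      rw [← h, OneMemClass.coe_one, one_smul]
    rw [pt_eq_iff hf hprod, inv_one, one_mul] at h2
    exact h2
  · intro g hg
    exact (hF 0 0 g hg).2

end Main

end Cfsg.Agent.H855.B57
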